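import Cfsg.Agent.H555.RV.Tools
import Cfsg.Agent.Lib.PSolvable
import Cfsg.Agent.PLocal.ThompsonJ
import Cfsg.Agent.S0618
import Cfsg.Agent.S0602

/-!
# Hall `{2,p}`-subgroups and Thompson factorization (helper768)

* `fac_of_solvable` : a solvable 3'-group `K` with `O(K) = 1` is Thompson factorizable;
* `exists_fac` : `T` a Sylow 2-subgroup of `S`, no `p`-subgroup is normalised by `T`, `D_{2,p}`: there is a Hall
  `{2,p}`-subgroup `K ≥ T` with `K = C_K(Ω₁(Z(T))) N_K(J(T))`;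
* `dvd_mul` : the subgroups `N ≤ N_S(J(T))`, `C ≤ C_S(z)`, `z` an involution in `Z(T)`, of orders `2 ^ a * p ^ j`, `2 ^ a * p ^ i`,
  `b ≤ j + i`;
* `no_dom` : so `p ^ b` divides `|N_S(J(T))| |C_S(z)|`.
-/

set_option autoImplicit false

namespace Cfsg.Agent.H768.RV

open Subgroup Cfsg Cfsg.Agent.H571.DExt Cfsg.Agent.H988.CPi Cfsg.Agent.H171.Odd
open scoped Pointwise

universe u

theorem card_sl : Nat.card (Matrix.SpecialLinearGroup (Fin 2) (ZMod 2)) = 6 := by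
  rw [Nat.card_eq_fintype_card]
  decide +kernel

/-- a solvable 3'-group with `O(K) = 1` is Thompson factorizable -/
theorem fac_of_solvable {K : Type*} [Group K] [Finite K] [Group.IsSolvable K] (h3 : ¬ 3 ∣ Nat.card K)
    (hO : pPrimeCore 2 K = ⊥) : IsThompsonFactorizable 2 K := by
  have : Fact (Nat.Prime 2) := ⟨Nat.prime_two⟩
  by_contra hnf
  obtain ⟨-, E, -, -, -, hn, ⟨e⟩⟩ := S0618.result (Lib.PSolvable.IsPSolvable_of_solvable 2) hO hnf
  apply h3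
  have h1 := Nat.card_congr e.toEquiv
  rw [card_sl] at h1
  have h2 := Subgroup.card_quotient_dvd_card ((centralizer ((⨆ S : Sylow 2 K, Cfsg.omegaOne 2 ((S : Subgroup K) ⊓
    Subgroup.centralizer ((S : Subgroup K) : Set K))) : Set K)).subgroupOf E)
  rw [h1] at h2
  exact (by norm_num : 3 ∣ 6).trans (h2.trans (card_subgroup_dvd_card E))

variable {S : Type u} [Group S]

/-- **the factorization of a Hall `{2,p}`-subgroup** -/
theorem exists_fac [Finite S] {p a b m : ℕ} (hp : p.Prime) (hp5 : 5 ≤ p) (hS : Nat.card S = 2 ^ a * p ^ b * m)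
    (h2 : ¬ 2 ∣ m) (hm : ¬ p ∣ m) (hI : Inv1 2 p S) (hD : Dom ({2, p} : Set ℕ) S) {T : Subgroup S}
    (hT2 : IsPGroup 2 T) (hTi : ¬ 2 ∣ T.index) :
    ∃ K : Subgroup S, Nat.card K = 2 ^ a * p ^ b ∧ IsPiHall ({2, p} : Set ℕ) K ∧ T ≤ K ∧
      (∀ X : Subgroup S, PiN ({2, p} : Set ℕ) (Nat.card X) → ∃ g : S, X ≤ MulAut.conj g • K) ∧
      ∀ g ∈ K, ∃ c ∈ K, ∃ n ∈ K, g = c * n ∧ n ∈ normalizer (thompsonSubgroupOf 2 T : Set S) ∧
        ∀ z ∈ T, z * z = 1 → (∀ t ∈ T, t * z = z * t) → c * z = z * c := by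
  have hp2 : p ≠ 2 := by omega
  obtain ⟨K0, hK0, hdom⟩ := hD
  have hfp : Fact p.Prime := ⟨hp⟩
  have hf2 : Fact (Nat.Prime 2) := ⟨Nat.prime_two⟩
  -- a conjugate containing `T`
  obtain ⟨g, hg⟩ := hdom T (by
    intro r hr hd
    obtain ⟨k, hk⟩ := hT2.exists_card_eq
    rw [hk] at hd
    left
    exact (Nat.prime_dvd_prime_iff_eq hr Nat.prime_two).1 (hr.dvd_of_dvd_pow hd))
  set K : Subgroup S := MulAut.conj g • K0 with hKdef
  have hK : IsPiHall ({2, p} : Set ℕ) K := isPiHall_smul hK0 g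
  have hcK := H555.RV.card_of_hall hp hp2 hS h2 hm hK
  have hdomK : ∀ X : Subgroup S, PiN ({2, p} : Set ℕ) (Nat.card X) → ∃ x : S, X ≤ MulAut.conj x • K := by
    intro X hX
    obtain ⟨x, hx⟩ := hdom X hX
    refine ⟨x * g⁻¹, ?_⟩
    rw [hKdef, ← mul_smul, ← map_mul, inv_mul_cancel_right]
    exact hx
  have hsol : Group.IsSolvable K := S0144.result 2 p a b Nat.prime_two hp hcK
  -- `O_p(K) = 1`
  have hOp : pCore p K = ⊥ := by
    obtain ⟨T⟩ : Nonempty (Sylow 2 K) := inferInstance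
    have h3 := hI ((T : Subgroup K).map K.subtype) (T.isPGroup'.map _)
      (not_dvd_index_map (by simp) hK T) ((pCore p K).map K.subtype)
      ((Lib.Cores.pCore_isPGroup p).map _) (by
        rintro x ⟨t, -, rfl⟩
        apply mem_normalizer_fintype
        rintro y ⟨z, hz, rfl⟩
        exact ⟨t * z * t⁻¹, (Lib.Cores.pCore_normal p).conj_mem z hz t, by simp⟩)
    rwa [map_eq_bot_iff_of_injective _ (subtype_injective _)] at h3
  have hO2 : pPrimeCore 2 K = ⊥ := by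
    have h3 := Lib.Cores.pPrimeCore_coprime (G := K) 2
    have h4 : Nat.card (pPrimeCore 2 K) ∣ p ^ b := by
      have h5 : Nat.card (pPrimeCore 2 K) ∣ 2 ^ a * p ^ b := by rw [← hcK]; exact card_subgroup_dvd_card _
      exact (Nat.Coprime.pow_right a h3).dvd_of_dvd_mul_left h5
    have h5 : IsPGroup p (pPrimeCore 2 K) := by
      obtain ⟨k, -, hk⟩ := (Nat.dvd_prime_pow hp).1 h4
      exact IsPGroup.of_card hk
    have h6 := Lib.Cores.le_pCore (Lib.Cores.pPrimeCore_normal 2) h5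
    rw [hOp] at h6
    exact le_bot_iff.1 h6
  have h3K : ¬ 3 ∣ Nat.card K := by
    rw [hcK]
    intro h
    rcases Nat.prime_three.dvd_mul.1 h with h | h
    · have := (Nat.prime_dvd_prime_iff_eq Nat.prime_three Nat.prime_two).1 (Nat.prime_three.dvd_of_dvd_pow h)
      omega
    · have := (Nat.prime_dvd_prime_iff_eq Nat.prime_three hp).1 (Nat.prime_three.dvd_of_dvd_pow h)
      omega
  have hfac := fac_of_solvable h3K hO2
  refine ⟨K, hcK, hK, hg, hdomK, fun x hx => ?_⟩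
  have hle : ((hT2.toSylow hTi : Sylow 2 S) : Subgroup S) ≤ K := hg
  have hTS : (((hT2.toSylow hTi).subtype hle : Sylow 2 K) : Subgroup K) = T.subgroupOf K := rfl
  obtain ⟨o, ho, c, hc, n, hn, e⟩ := hfac ((hT2.toSylow hTi).subtype hle) ⟨x, hx⟩
  rw [hTS] at hc hn
  rw [hO2, mem_bot] at ho
  rw [ho, one_mul] at e
  refine ⟨c, c.2, n, n.2, congrArg Subtype.val e, ?_, ?_⟩
  · have hJ : thompsonSubgroupOf 2 T = (thompsonSubgroupOf 2 (T.subgroupOf K)).map K.subtype := by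
      rw [← PLocal.ThompsonJ.thompsonSubgroupOf_map 2 K.subtype_injective, subgroupOf_map_subtype, inf_eq_left.2 hg]
    rw [hJ]
    apply mem_normalizer_fintype
    rintro y ⟨z, hz, rfl⟩
    exact ⟨n * z * n⁻¹, (mem_normalizer_iff.1 hn z).1 hz, by simp⟩
  · intro z hz hzz hzc
    have h1 : (⟨z, hg hz⟩ : K) ∈ omegaOne 2 (T.subgroupOf K ⊓ centralizer (T.subgroupOf K : Set K)) := by
      apply Subgroup.subset_closure
      refine ⟨⟨hz, ?_⟩, Subtype.ext (by rw [coe_pow, pow_two]; exact hzz)⟩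
      show (⟨z, hg hz⟩ : K) ∈ centralizer (T.subgroupOf K : Set K)
      rw [mem_centralizer_iff]
      intro t ht
      exact Subtype.ext (hzc t ht)
    exact (congrArg Subtype.val (mem_centralizer_iff.1 hc _ h1)).symm

/-- the `p`-part -/
theorem dvd_mul [Finite S] {p a b m : ℕ} (hp : p.Prime) (hp5 : 5 ≤ p) (hS : Nat.card S = 2 ^ a * p ^ b * m)
    (h2 : ¬ 2 ∣ m) (hm : ¬ p ∣ m) (hI : Inv1 2 p S) (hD : Dom ({2, p} : Set ℕ) S) {T : Subgroup S}
    (hT2 : IsPGroup 2 T) (hTi : ¬ 2 ∣ T.index) {z : S} (hz : z ∈ T) (hzz : z * z = 1) (hzc : ∀ t ∈ T, t * z = z * t) :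
    ∃ N C : Subgroup S, ∃ j i : ℕ, Nat.card N = 2 ^ a * p ^ j ∧ Nat.card C = 2 ^ a * p ^ i ∧ b ≤ j + i ∧
      j ≤ b ∧ i ≤ b ∧ T ≤ N ∧ T ≤ C ∧ C ≤ centralizer {z} ∧ N ≤ normalizer (thompsonSubgroupOf 2 T : Set S) := by
  have hfp : Fact p.Prime := ⟨hp⟩
  have hf2 : Fact (Nat.Prime 2) := ⟨Nat.prime_two⟩
  obtain ⟨K, hcK, hK, hTK, -, hf⟩ := exists_fac hp hp5 hS h2 hm hI hD hT2 hTi
  set N : Subgroup S := K ⊓ normalizer (thompsonSubgroupOf 2 T : Set S) with hN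
  set C : Subgroup S := K ⊓ centralizer {z} with hC
  have hTN : T ≤ N := le_inf hTK (by
    intro t ht
    apply mem_normalizer_fintype
    rintro y ⟨w, hw, rfl⟩
    have h1 : (thompsonSubgroup 2 T).Characteristic := S0602.result.1
    have h2 : (thompsonSubgroup 2 T).Normal := inferInstance
    exact ⟨⟨t, ht⟩ * w * ⟨t, ht⟩⁻¹, h2.conj_mem w hw _, by simp⟩)
  have hTC : T ≤ C := le_inf hTK fun t ht => mem_centralizer_singleton_iff.2 (hzc t ht)
  have ha : Nat.card T = 2 ^ a := by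
    obtain ⟨k, hk⟩ := hT2.exists_card_eq
    have h1 := card_mul_index T
    rw [hk, hS] at h1
    have h5 : ¬ 2 ∣ p ^ b * m := by
      intro h
      rcases Nat.prime_two.dvd_mul.1 h with h | h
      · have := (Nat.prime_dvd_prime_iff_eq Nat.prime_two hp).1 (Nat.prime_two.dvd_of_dvd_pow h)
        omega
      · exact h2 h
    have h6 : Nat.Coprime (2 ^ k) (p ^ b * m) := (Nat.Prime.coprime_pow_of_not_dvd Nat.prime_two h5).symm
    have h7 : Nat.Coprime (2 ^ a) T.index := (Nat.Prime.coprime_pow_of_not_dvd Nat.prime_two hTi).symm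
    rw [hk]
    apply Nat.dvd_antisymm
    · exact h6.dvd_of_dvd_mul_right (by rw [← mul_assoc, ← h1]; exact Nat.dvd_mul_right _ _)
    · exact h7.dvd_of_dvd_mul_right (by rw [h1, mul_assoc]; exact Nat.dvd_mul_right _ _)
  -- the orders
  have key : ∀ X : Subgroup S, X ≤ K → T ≤ X → ∃ j, j ≤ b ∧ Nat.card X = 2 ^ a * p ^ j := by
    intro X hX hTX
    obtain ⟨r, hr⟩ := card_dvd_of_le hTX
    have h1 := card_dvd_of_le hX
    rw [hcK, hr, ha] at h1
    obtain ⟨j, hj, hj2⟩ := (Nat.dvd_prime_pow hp).1 (Nat.dvd_of_mul_dvd_mul_left (by positivity) h1)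
    exact ⟨j, hj, by rw [hr, ha, hj2]⟩
  obtain ⟨j, hj, hjN⟩ := key N inf_le_left hTN
  obtain ⟨i, hi, hiC⟩ := key C inf_le_left hTC
  refine ⟨N, C, j, i, hjN, hiC, ?_, hj, hi, hTN, hTC, inf_le_right, inf_le_right⟩
  have h1 : Nat.card K ≤ Nat.card ((↥C ⧸ T.subgroupOf C) × N) := by
    refine Nat.card_le_card_of_surjective
      (fun x : (↥C ⧸ T.subgroupOf C) × N => (⟨(x.1.out : S) * x.2, K.mul_mem x.1.out.2.1 x.2.2.1⟩ : K)) ?_
    rintro ⟨x, hx⟩
    obtain ⟨c, hc, n, hn, e, hnJ, hcz⟩ := hf x hx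
    obtain ⟨t, ht⟩ := QuotientGroup.mk_out_eq_mul (T.subgroupOf C)
      (⟨c, hc, mem_centralizer_singleton_iff.2 (hcz z hz hzz hzc)⟩ : C)
    have htT : ((t : C) : S) ∈ T := t.2
    refine ⟨(QuotientGroup.mk ⟨c, hc, mem_centralizer_singleton_iff.2 (hcz z hz hzz hzc)⟩,
      ⟨((t : C) : S)⁻¹ * n, mul_mem (inv_mem (hTN htT)) ⟨hn, hnJ⟩⟩), Subtype.ext ?_⟩
    have h3 := congrArg Subtype.val ht
    show ((QuotientGroup.mk (⟨c, hc, mem_centralizer_singleton_iff.2 (hcz z hz hzz hzc)⟩ : C) :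
      ↥C ⧸ T.subgroupOf C).out : S) * (((t : C) : S)⁻¹ * n) = x
    rw [h3, e]
    show c * ((t : C) : S) * (((t : C) : S)⁻¹ * n) = c * n
    group
  have h3 : Nat.card (↥C ⧸ T.subgroupOf C) = p ^ i := by
    have h4 := card_mul_index (T.subgroupOf C)
    rw [Nat.card_congr (subgroupOfEquivOfLe hTC).toEquiv, ha, hiC] at h4
    exact Nat.eq_of_mul_eq_mul_left (by positivity) h4
  rw [Nat.card_prod, h3, hjN, hcK] at h1
  have h4 : p ^ b ≤ p ^ (j + i) := by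
    apply Nat.le_of_mul_le_mul_left (c := 2 ^ a) _ (by positivity)
    calc 2 ^ a * p ^ b ≤ p ^ i * (2 ^ a * p ^ j) := h1
      _ = 2 ^ a * p ^ (j + i) := by rw [pow_add]; ring
  exact (Nat.pow_le_pow_iff_right hp.one_lt).1 h4

/-- **numerical criterion** -/
theorem no_dom [Finite S] {p a b m : ℕ} (hp : p.Prime) (hp5 : 5 ≤ p) (hS : Nat.card S = 2 ^ a * p ^ b * m)
    (h2 : ¬ 2 ∣ m) (hm : ¬ p ∣ m) (hI : Inv1 2 p S) {T : Subgroup S} (hT2 : IsPGroup 2 T) (hTi : ¬ 2 ∣ T.index) {z : S}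
    (hz : z ∈ T) (hzz : z * z = 1) (hzc : ∀ t ∈ T, t * z = z * t)
    (h : ¬ p ^ b ∣ Nat.card (normalizer (thompsonSubgroupOf 2 T : Set S)) * Nat.card (centralizer ({z} : Set S))) :
    ¬ Dom ({2, p} : Set ℕ) S := by
  intro hD
  obtain ⟨N, C, j, i, hN, hC, hb, -, -, -, -, hCz, hNJ⟩ := dvd_mul hp hp5 hS h2 hm hI hD hT2 hTi hz hzz hzc
  apply h
  have h1 : p ^ j ∣ Nat.card (normalizer (thompsonSubgroupOf 2 T : Set S)) :=
    (Dvd.intro_left _ hN.symm).trans (card_dvd_of_le hNJ)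
  have h3 : p ^ i ∣ Nat.card (centralizer ({z} : Set S)) := (Dvd.intro_left _ hC.symm).trans (card_dvd_of_le hCz)
  exact (pow_dvd_pow p hb).trans (by rw [pow_add]; exact mul_dvd_mul h1 h3)

end Cfsg.Agent.H768.RV
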